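import Cfsg.Agent.H856.JM.CommTest

/-!
# The test for the pieces 8 to 11 (generated, helper856)
-/

set_option autoImplicit false
set_option maxRecDepth 100000

namespace Cfsg.Agent.H856.JM.CK

open Cfsg.Agent.H111.JM.Eng Cfsg.Agent.H111.JM.Pc Cfsg.Agent.H111.JM.Env Cfsg.Agent.H856.JM.CommTest

theorem r8 : pc8.chk 112 LC LC LT test = true := by decide +kernel

theorem r9 : pc9.chk 112 LC LC LT test = true := by decide +kernel

theorem r10 : pc10.chk 112 LC LC LT test = true := by decide +kernel

theorem r11 : pc11.chk 112 LC LC LT test = true := by decide +kernel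

end Cfsg.Agent.H856.JM.CK
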